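import Mathlib
import Cfsg.Agent.Orth.Class2
import Cfsg.Agent.Herm.Conj
import Cfsg.Agent.Herm.Embed

/-! Embeddings between classical groups (up to an abstract injective homomorphism). -/

set_option autoImplicit false
set_option backward.isDefEq.respectTransparency false

namespace Cfsg.Agent.Law

open Matrix
open scoped MatrixGroups

/-- `H` embeds in `G`. -/
def Emb (H G : Type*) [Group H] [Group G] : Prop := ∃ φ : H →* G, Function.Injective φ

section General
variable {H G K : Type*} [Group H] [Group G] [Group K]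

theorem Emb.trans (h₁ : Emb H G) (h₂ : Emb G K) : Emb H K := by
  obtain ⟨φ, hφ⟩ := h₁
  obtain ⟨ψ, hψ⟩ := h₂
  exact ⟨ψ.comp φ, hψ.comp hφ⟩

theorem Emb.rfl' : Emb G G := ⟨MonoidHom.id G, Function.injective_id⟩

theorem Emb.of_equiv (e : H ≃* G) : Emb H G := ⟨e.toMonoidHom, e.injective⟩

theorem Emb.sub (A : Subgroup G) : Emb A G := ⟨A.subtype, A.subtype_injective⟩

theorem Emb.of_le {A B : Subgroup G} (h : A ≤ B) : Emb A B :=
  ⟨Subgroup.inclusion h, Subgroup.inclusion_injective h⟩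

theorem Emb.of_range (φ : H →* G) (hφ : Function.Injective φ) (A : Subgroup G) (h : ∀ x, φ x ∈ A) :
    Emb H A :=
  ⟨φ.codRestrict A h, fun _ _ hxy => hφ (congrArg Subtype.val hxy)⟩

theorem Emb.comm (h : Emb H G) (hH : commutator H = ⊤) : Emb H (commutator G) := by
  obtain ⟨φ, hφ⟩ := h
  exact Emb.of_range φ hφ _ fun x => Orth.map_mem_commutator φ (hH ▸ Subgroup.mem_top x)

theorem Emb.of_le_range (φ : H →* G) (hφ : Function.Injective φ) {A : Subgroup G} (h : A ≤ φ.range) :
    Emb A H :=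
  (Emb.of_le h).trans (Emb.of_equiv (MonoidHom.ofInjective hφ).symm)

theorem Emb.card_le [Finite G] (h : Emb H G) : Nat.card H ≤ Nat.card G := by
  obtain ⟨φ, hφ⟩ := h
  exact Nat.card_le_card_of_injective φ hφ

theorem Emb.prod_left : Emb H (H × G) := ⟨MonoidHom.inl H G, fun _ _ h => congrArg Prod.fst h⟩

theorem Emb.prod_right : Emb G (H × G) := ⟨MonoidHom.inr H G, fun _ _ h => congrArg Prod.snd h⟩

end General

section Mat
variable {F : Type*} [Field F] {ι κ : Type*} [Fintype ι] [DecidableEq ι] [Fintype κ] [DecidableEq κ]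

/-- `A ↦ A ⊕ 1`. -/
def blkM (ι κ : Type*) [Fintype ι] [DecidableEq ι] [Fintype κ] [DecidableEq κ] (F : Type*) [Field F] :
    Matrix ι ι F →* Matrix (ι ⊕ κ) (ι ⊕ κ) F where
  toFun A := fromBlocks A 0 0 1
  map_one' := fromBlocks_one
  map_mul' A B := by simp [fromBlocks_multiply]

theorem blkM_injective : Function.Injective (blkM ι κ F) := fun A B h => by
  have := fromBlocks_inj.1 h
  exact this.1

/-- `A ↦ A ⊕ 1`, reindexed. -/
def blkE {μ : Type*} [Fintype μ] [DecidableEq μ] (e : ι ⊕ κ ≃ μ) (F : Type*) [Field F] :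
    GL ι F →* GL μ F :=
  Units.map ((reindexAlgEquiv F F e).toMulEquiv.toMonoidHom.comp (blkM ι κ F))

theorem blkE_coe {μ : Type*} [Fintype μ] [DecidableEq μ] (e : ι ⊕ κ ≃ μ) (A : GL ι F) :
    ((blkE e F A : GL μ F) : Matrix μ μ F) = reindex e e (fromBlocks (A : Matrix ι ι F) 0 0 1) := rfl

theorem blkE_injective {μ : Type*} [Fintype μ] [DecidableEq μ] (e : ι ⊕ κ ≃ μ) :
    Function.Injective (blkE e F) :=
  Units.map_injective ((reindexAlgEquiv F F e).injective.comp blkM_injective)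

theorem emb_GL {m n : ℕ} (h : m ≤ n) : Emb (GL (Fin m) F) (GL (Fin n) F) := by
  obtain ⟨k, rfl⟩ := Nat.exists_eq_add_of_le h
  exact ⟨blkE finSumFinEquiv F, blkE_injective _⟩

theorem emb_SL_GL : Emb (SpecialLinearGroup ι F) (GL ι F) :=
  ⟨SpecialLinearGroup.toGL, SpecialLinearGroup.toGL_injective⟩

theorem det_of_mem_commutator {g : GL ι F} (hg : g ∈ commutator (GL ι F)) : (g : Matrix ι ι F).det = 1 := by
  have h := Abelianization.commutator_subset_ker (GeneralLinearGroup.det : GL ι F →* Fˣ) hg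
  rw [MonoidHom.mem_ker] at h
  have := congrArg Units.val h
  simpa using this

theorem emb_comm_SL : Emb (commutator (GL ι F)) (SpecialLinearGroup ι F) :=
  Emb.of_le_range _ SpecialLinearGroup.toGL_injective fun g hg =>
    ⟨⟨g, det_of_mem_commutator hg⟩, Units.ext rfl⟩

/-- permutation matrices. -/
def permGL (ι : Type*) [Fintype ι] [DecidableEq ι] (F : Type*) [Field F] : Equiv.Perm ι →* GL ι F :=
  (permMatrixHom (n := ι) (R := F)).toHomUnits

theorem permGL_coe (s : Equiv.Perm ι) : ((permGL ι F s : GL ι F) : Matrix ι ι F) = (s⁻¹).permMatrix F := rfl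

theorem permGL_injective : Function.Injective (permGL ι F) := by
  rw [injective_iff_map_eq_one]
  intro s hs
  have h : (s⁻¹).permMatrix F = 1 := by rw [← permGL_coe, hs]; rfl
  ext i
  have := congrFun (congrFun h (s i)) i
  by_contra hne
  simp [Equiv.Perm.permMatrix, PEquiv.toMatrix_apply, Matrix.one_apply] at this
  exact hne this

theorem emb_perm_GL : Emb (Equiv.Perm ι) (GL ι F) := ⟨permGL ι F, permGL_injective⟩

/-- the Levi embedding `GL_m → Sp_{2m}`. -/
def leviSp (ι : Type*) [Fintype ι] [DecidableEq ι] (F : Type*) [Field F] : GL ι F →* symplecticGroup ι F where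
  toFun A := ⟨fromBlocks (A : Matrix ι ι F) 0 0 ((A⁻¹ : GL ι F) : Matrix ι ι F)ᵀ, by
    rw [SymplecticGroup.mem_iff, J, fromBlocks_transpose, fromBlocks_multiply, fromBlocks_multiply]
    have h1 : (A : Matrix ι ι F) * ((A⁻¹ : GL ι F) : Matrix ι ι F) = 1 := by simp
    have h2 : ((A⁻¹ : GL ι F) : Matrix ι ι F)ᵀ * (A : Matrix ι ι F)ᵀ = 1 := by
      rw [← transpose_mul, h1, transpose_one]
    simp only [transpose_zero, Matrix.mul_zero, Matrix.zero_mul, add_zero, zero_add, transpose_transpose,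
      Matrix.mul_neg, Matrix.mul_one, Matrix.neg_mul, h1, h2, neg_zero]⟩
  map_one' := Subtype.ext (by simp)
  map_mul' A B := Subtype.ext (by
    simp only [Units.val_mul, _root_.mul_inv_rev, transpose_mul, Submonoid.coe_mul, fromBlocks_multiply]
    simp)

theorem emb_GL_Sp : Emb (GL ι F) (symplecticGroup ι F) :=
  ⟨leviSp ι F, fun A B h => Units.ext (fromBlocks_inj.1 (congrArg Subtype.val h)).1⟩

theorem emb_Sp_GL : Emb (symplecticGroup ι F) (GL (ι ⊕ ι) F) :=
  ⟨(symplecticGroup ι F).subtype.toHomUnits, fun A B h => Subtype.ext (congrArg Units.val h)⟩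

theorem card_GL_le [Finite F] : Nat.card (GL ι F) ≤ Nat.card F ^ (Fintype.card ι * Fintype.card ι) := by
  have h := Nat.card_le_card_of_injective (Units.val : GL ι F → Matrix ι ι F) Units.val_injective
  refine h.trans (le_of_eq ?_)
  rw [show Matrix ι ι F = (ι → ι → F) from rfl, Nat.card_fun, Nat.card_fun, ← pow_mul]
  simp

end Mat

section Orth
open Orth
variable {F : Type*} [Field F]

theorem emb_GL_plus (m : ℕ) : Emb (GL (Fin m) F) (Cfsg.isometryGroup F (Cfsg.quadFormPlus m F)) := by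
  rw [← coe_plusQ]
  exact Emb.trans ⟨levi m F, levi_injective m⟩ (Emb.of_equiv (toOG _).symm)

theorem emb_GL_odd (m : ℕ) : Emb (GL (Fin m) F) (Cfsg.isometryGroup F (Cfsg.quadFormOdd m F)) := by
  let Q₁ : QuadraticForm F (Unit → F) := QuadraticMap.linMulLin (LinearMap.proj ()) (LinearMap.proj ())
  have h : Cfsg.quadFormOdd m F = ⇑(sumQ Q₁ (plusQ m F)) := by
    funext v
    rw [coe_sumQ]
    simp [Cfsg.quadFormOdd, plusQ_apply, Q₁, sq]
  rw [h]
  exact (Emb.trans ⟨levi m F, levi_injective m⟩ (Emb.prod_right (H := OG Q₁))).trans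
    (Emb.trans ⟨_, sumHom_injective (sumQIso Q₁ (plusQ m F))⟩ (Emb.of_equiv (toOG _).symm))

theorem emb_GL_minus (m : ℕ) (a b : F) :
    Emb (GL (Fin m) F) (Cfsg.isometryGroup F (Cfsg.quadFormMinus m F a b)) := by
  let Q₂ : QuadraticForm F (Fin 2 → F) :=
    QuadraticMap.linMulLin (LinearMap.proj 0) (LinearMap.proj 0) +
      a • QuadraticMap.linMulLin (LinearMap.proj 0) (LinearMap.proj 1) +
      b • QuadraticMap.linMulLin (LinearMap.proj 1) (LinearMap.proj 1)
  have h : Cfsg.quadFormMinus m F a b = ⇑(sumQ (plusQ m F) Q₂) := by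
    funext v
    rw [coe_sumQ]
    simp [Cfsg.quadFormMinus, plusQ_apply, Q₂, sq, mul_assoc]
  rw [h]
  exact (Emb.trans ⟨levi m F, levi_injective m⟩ (Emb.prod_left (G := OG Q₂))).trans
    (Emb.trans ⟨_, sumHom_injective (sumQIso (plusQ m F) Q₂)⟩ (Emb.of_equiv (toOG _).symm))

end Orth

section Herm
open Herm
variable {F : Type*} [Field F] [Finite F] {q : ℕ}

theorem emb_GU (hF : Nat.card F = q ^ 2) {m n : ℕ} (h : m ≤ n) : Emb (Cfsg.GU m F q) (Cfsg.GU n F q) := by
  obtain ⟨k, rfl⟩ := Nat.exists_eq_add_of_le h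
  refine Emb.of_range ((blkE finSumFinEquiv F).comp (Cfsg.GU m F q).subtype)
    ((blkE_injective _).comp (Cfsg.GU m F q).subtype_injective) _ fun g => ?_
  have hg := (mem_GU_iff hF g.1).1 g.2
  rw [mem_GU_iff hF]
  change ct (frob hF) (reindex finSumFinEquiv finSumFinEquiv (fromBlocks (g.1 : Matrix (Fin m) (Fin m) F) 0 0 1)) *
    reindex finSumFinEquiv finSumFinEquiv (fromBlocks (g.1 : Matrix (Fin m) (Fin m) F) 0 0 1) = 1
  rw [ct_apply] at hg ⊢
  have : (reindex finSumFinEquiv finSumFinEquiv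
      (fromBlocks (g.1 : Matrix (Fin m) (Fin m) F) 0 0 (1 : Matrix (Fin k) (Fin k) F))).map (frob hF) =
      reindex finSumFinEquiv finSumFinEquiv
        (fromBlocks ((g.1 : Matrix (Fin m) (Fin m) F).map (frob hF)) 0 0 (1 : Matrix (Fin k) (Fin k) F)) := by
    rw [reindex_apply, reindex_apply, ← submatrix_map, fromBlocks_map]
    simp
  rw [this, transpose_reindex, reindex_apply, reindex_apply, submatrix_mul_equiv, fromBlocks_transpose,
    fromBlocks_multiply]
  simp [hg]

theorem emb_perm_GU (hF : Nat.card F = q ^ 2) (n : ℕ) : Emb (Equiv.Perm (Fin n)) (Cfsg.GU n F q) := by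
  refine Emb.of_range (permGL (Fin n) F) permGL_injective _ fun s => ?_
  rw [mem_GU_iff hF, permGL_coe, ct_apply]
  have : ((s⁻¹).permMatrix F).map (frob hF) = (s⁻¹).permMatrix F := by
    ext i j
    simp [Equiv.Perm.permMatrix, PEquiv.toMatrix_apply, apply_ite]
  rw [this, transpose_permMatrix, ← permMatrix_mul]
  simp

omit [Finite F] in
theorem emb_comm_SU (n : ℕ) : Emb (commutator (Cfsg.GU n F q)) (Cfsg.SU n F q) :=
  Emb.of_le_range _ suToGU_injective fun g hg =>
    (mem_range_suToGU g).2 (det_of_mem_commutator (Orth.map_mem_commutator (Cfsg.GU n F q).subtype hg))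

theorem emb_SL2_SU2 (hF : Nat.card F = q ^ 2) {K : Type*} [Field K] [Finite K] (hK : Nat.card K = q) :
    Nonempty (SL(2, K) ≃* Cfsg.SU 2 F q) := by
  obtain ⟨ι, hι⟩ := (inv_frob hF).exists_ringHom hF hK
  letI : Algebra K F := ι.toAlgebra
  have h : IsFix K (frob hF) := ⟨inv_frob hF, hι⟩
  obtain ⟨e⟩ := h.SL_two_equiv (hf_sB hF 2) (by simp)
  exact ⟨e.trans (toSUG hF 2).symm⟩

end Herm

end Cfsg.Agent.Law
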